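import Mathlib.GroupTheory.SpecificGroups.Alternating
import Mathlib.GroupTheory.SpecificGroups.Alternating.Simple
import Mathlib.GroupTheory.IsPerfect
import Mathlib.GroupTheory.Subgroup.Simple

/-! Counts of involutions in the alternating group of degree five. -/

set_option autoImplicit false

namespace CfsgLib.InvolChar

theorem alt5_count_sq_one :
    (Finset.univ.filter fun x : alternatingGroup (Fin 5) => x * x = 1).card = 16 := by decide +kernel

theorem alt5_count_commuting : ∀ b : alternatingGroup (Fin 5), b * b = 1 → b ≠ 1 →
    (Finset.univ.filter fun x : alternatingGroup (Fin 5) => x * x = 1 ∧ x * b = b * x).card = 4 := by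
  decide +kernel

theorem alt5_count_odd_product : ∀ b : alternatingGroup (Fin 5), b * b = 1 → b ≠ 1 →
    (Finset.univ.filter fun x : alternatingGroup (Fin 5) =>
      x * x = 1 ∧ (b * x) ^ 15 = 1).card = 13 := by
  decide +kernel

theorem alt5_pow_thirty : ∀ x : alternatingGroup (Fin 5), x ^ 30 = 1 := by decide +kernel

theorem alt5_center : Subgroup.center (alternatingGroup (Fin 5)) = ⊥ :=
  alternatingGroup.center_eq_bot (by simp)

theorem alt5_commutator : commutator (alternatingGroup (Fin 5)) = ⊤ := by
  have hs : IsSimpleGroup (alternatingGroup (Fin 5)) := alternatingGroup.isSimpleGroup (by simp)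
  refine ((show (commutator (alternatingGroup (Fin 5))).Normal from inferInstance).eq_bot_or_eq_top).resolve_left
    fun h => ?_
  have h1 : Subgroup.center (alternatingGroup (Fin 5)) = ⊤ := (commutator_eq_bot_iff_center_eq_top (G := alternatingGroup (Fin 5))).mp h
  rw [alt5_center] at h1
  exact bot_ne_top h1

end CfsgLib.InvolChar
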