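import Cfsg.Agent.Eq.Def_Transfer
import Cfsg.Prelude.Def_Transfer
import Mathlib.GroupTheory.Commutator.Basic
import Mathlib.Algebra.BigOperators.Ring.Finset
import Mathlib.GroupTheory.Coset.Card
import Mathlib.Tactic.Linarith
import Mathlib.Tactic.Ring

/-!
Involutions in an extraspecial group of order 32: there are 12 or 20 solutions of `x * x = 1`,
and in the first case two commuting non-central involutions differ by a central element.
-/

set_option autoImplicit false

namespace CfsgLib.InvolChar

open Finset

/-- A group with a central element `c` of order two that contains all commutators. -/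
structure CentralTwo {Q : Type*} [Group Q] (c : Q) : Prop where
  ne_one : c ≠ 1
  sq : c * c = 1
  comm : ∀ a : Q, a * c = c * a
  center : ∀ a : Q, (∀ b : Q, a * b = b * a) → a = 1 ∨ a = c
  skew : ∀ a b : Q, a * b = b * a ∨ a * b = b * a * c

theorem centralTwo_of_extraspecial {Q : Type*} [Group Q] [Finite Q] (hQ : Cfsg.IsExtraspecial 2 Q)
    {c : Q} (hc : c ∈ Subgroup.center Q) (hc1 : c ≠ 1) : CentralTwo c := by
  obtain ⟨⟨-, -, hcomm⟩, hcard⟩ := hQ
  obtain ⟨p, q, hpq, huniv⟩ := Nat.card_eq_two_iff.mp hcard
  have hall : ∀ a : Q, a ∈ Subgroup.center Q → a = 1 ∨ a = c := by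
    intro a ha
    have h1 : (1 : Subgroup.center Q) = p ∨ (1 : Subgroup.center Q) = q := by
      have := Set.eq_univ_iff_forall.mp huniv 1; simpa using this
    have h2 : (⟨a, ha⟩ : Subgroup.center Q) = p ∨ (⟨a, ha⟩ : Subgroup.center Q) = q := by
      have := Set.eq_univ_iff_forall.mp huniv ⟨a, ha⟩; simpa using this
    have h3 : (⟨c, hc⟩ : Subgroup.center Q) = p ∨ (⟨c, hc⟩ : Subgroup.center Q) = q := by
      have := Set.eq_univ_iff_forall.mp huniv ⟨c, hc⟩; simpa using this
    have hne : (⟨c, hc⟩ : Subgroup.center Q) ≠ 1 := fun h => hc1 (by simpa [Subtype.ext_iff] using h)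
    rcases h1 with h1 | h1 <;> rcases h2 with h2 | h2 <;> rcases h3 with h3 | h3 <;>
      first
        | exact absurd (h3.trans h1.symm) hne
        | exact Or.inl (congrArg Subtype.val (h2.trans h1.symm))
        | exact Or.inr (congrArg Subtype.val (h2.trans h3.symm))
  have hsq : c * c = 1 := by
    rcases hall (c * c) (mul_mem hc hc) with h | h
    · exact h
    · exact absurd (mul_eq_left.mp h) hc1
  refine ⟨hc1, hsq, fun a => Subgroup.mem_center_iff.mp hc a,
    fun a ha => hall a (Subgroup.mem_center_iff.mpr fun g => (ha g).symm), fun a b => ?_⟩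
  have hmem : a⁻¹ * b⁻¹ * (a⁻¹)⁻¹ * (b⁻¹)⁻¹ ∈ Subgroup.center Q := by
    rw [← hcomm]
    exact Subgroup.commutator_mem_commutator (Subgroup.mem_top _) (Subgroup.mem_top _)
  rcases hall _ hmem with h | h
  · left
    calc a * b = b * a * (a⁻¹ * b⁻¹ * (a⁻¹)⁻¹ * (b⁻¹)⁻¹) := by group
      _ = b * a := by rw [h, mul_one]
  · right
    calc a * b = b * a * (a⁻¹ * b⁻¹ * (a⁻¹)⁻¹ * (b⁻¹)⁻¹) := by group
      _ = b * a * c := by rw [h]

namespace CentralTwo

variable {Q : Type*} [Group Q] {c : Q} (h : CentralTwo c)
include h

theorem inv_eq : c⁻¹ = c := inv_eq_of_mul_eq_one_left h.sq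

theorem mul_self_eq (a : Q) : a * a = 1 ∨ a * a = c := by
  refine h.center _ fun b => ?_
  rcases h.skew a b with e | e
  · rw [mul_assoc, e, ← mul_assoc, e, mul_assoc]
  · calc a * a * b = a * (a * b) := mul_assoc _ _ _
      _ = a * b * a * c := by conv_lhs => rw [e]
                              simp only [mul_assoc]
      _ = b * a * c * a * c := by rw [e]
      _ = b * a * a * (c * c) := by
        rw [mul_assoc (b * a) c a, ← h.comm a]; simp only [mul_assoc]
      _ = b * (a * a) := by rw [h.sq, mul_one, mul_assoc]

variable [DecidableEq Q]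

omit h in
/-- `1` on commuting pairs and `-1` on the others. -/
def chi (a b : Q) : ℤ := if a * b = b * a then 1 else -1

omit h in
/-- `1` on solutions of `x * x = 1` and `-1` on the others. -/
def eps (a : Q) : ℤ := if a * a = 1 then 1 else -1

theorem chi_mul (x y b : Q) : chi (x * y) b = chi x b * chi y b := by
  have key : ∀ {u v : Q}, u * b = b * u → v * b = b * v * c → u * v * b ≠ b * (u * v) := by
    intro u v hu hv he
    have : b * (u * v) * c = b * (u * v) := by
      calc b * (u * v) * c = b * u * v * c := by simp only [mul_assoc]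
        _ = u * b * v * c := by rw [hu]
        _ = u * (b * v * c) := by simp only [mul_assoc]
        _ = u * v * b := by rw [← hv, mul_assoc]
        _ = _ := he
    exact h.ne_one (mul_eq_left.mp this)
  have key' : ∀ {u v : Q}, u * b = b * u * c → v * b = b * v → u * v * b ≠ b * (u * v) := by
    intro u v hu hv he
    have : b * (u * v) * c = b * (u * v) := by
      calc b * (u * v) * c = b * u * (v * c) := by simp only [mul_assoc]
        _ = b * u * c * v := by rw [h.comm v]; simp only [mul_assoc]
        _ = u * b * v := by rw [hu]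
        _ = u * v * b := by rw [mul_assoc, ← hv, mul_assoc]
        _ = _ := he
    exact h.ne_one (mul_eq_left.mp this)
  have ne_of : ∀ {u : Q}, u * b = b * u * c → u * b ≠ b * u := fun hu he =>
    h.ne_one (mul_eq_left.mp (hu.symm.trans he))
  rcases h.skew x b with hx | hx <;> rcases h.skew y b with hy | hy
  · have : x * y * b = b * (x * y) := by rw [mul_assoc, hy, ← mul_assoc, hx, mul_assoc]
    simp [chi, hx, hy, this]
  · simp [chi, hx, ne_of hy, key hx hy]
  · simp [chi, hy, ne_of hx, key' hx hy]
  · have : x * y * b = b * (x * y) := by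
      calc x * y * b = x * (y * b) := mul_assoc _ _ _
        _ = x * b * y * c := by rw [hy]; simp only [mul_assoc]
        _ = b * x * c * y * c := by rw [hx]
        _ = b * x * y * (c * c) := by
          rw [mul_assoc (b * x) c y, ← h.comm y]; simp only [mul_assoc]
        _ = b * (x * y) := by rw [h.sq, mul_one, mul_assoc]
    simp [chi, ne_of hx, ne_of hy, this]

omit h in
theorem chi_symm (x y : Q) : chi x y = chi y x := by
  by_cases e : x * y = y * x <;> simp [chi, e, eq_comm]

theorem eps_mul (x y : Q) : eps (x * y) = eps x * eps y * chi x y := by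
  have hne := h.ne_one
  have hsq := h.sq
  have cases2 : x * y * (x * y) = x * x * (y * y) ∨
      x * y * (x * y) = x * x * (y * y) * c := by
    rcases h.skew y x with e | e
    · left; simp only [mul_assoc]; rw [← mul_assoc y x, e]; simp only [mul_assoc]
    · right
      calc x * y * (x * y) = x * (y * x) * y := by simp only [mul_assoc]
        _ = x * x * (y * (c * y)) := by rw [e]; simp only [mul_assoc]
        _ = x * x * (y * y) * c := by rw [← h.comm y]; simp only [mul_assoc]
  by_cases e : x * y = y * x
  · have hh : x * y * (x * y) = x * x * (y * y) := by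
      simp only [mul_assoc]; rw [← mul_assoc y x, ← e]; simp only [mul_assoc]
    rcases h.mul_self_eq x with hx | hx <;> rcases h.mul_self_eq y with hy | hy <;>
      simp [eps, show chi x y = 1 from if_pos e, hh, hx, hy, hne, hsq]
  · have hh : x * y * (x * y) = x * x * (y * y) * c := by
      refine cases2.resolve_left fun e' => e ?_
      have := mul_left_cancel (a := x) (b := y * (x * y)) (c := x * (y * y))
        (by simpa only [mul_assoc] using e')
      exact (mul_right_cancel (b := y) (by simpa only [mul_assoc] using this.symm))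
    rcases h.mul_self_eq x with hx | hx <;> rcases h.mul_self_eq y with hy | hy <;>
      simp [eps, show chi x y = -1 from if_neg e, hh, hx, hy, hne, hsq]

theorem eps_mul_self (x : Q) : eps x * eps x = 1 := by
  by_cases e : x * x = 1 <;> simp [eps, e]

variable [Fintype Q]

omit h in
theorem sum_eq_zero_of_neg {α : Type*} [Fintype α] {f : α → ℤ} (σ : α ≃ α)
    (hσ : ∀ a, f (σ a) = - f a) : ∑ a, f a = 0 := by
  have := Equiv.sum_comp σ f
  simp only [hσ, sum_neg_distrib] at this
  linarith

theorem sum_chi (b : Q) :
    ∑ x : Q, chi x b = if b = 1 ∨ b = c then (Fintype.card Q : ℤ) else 0 := by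
  split_ifs with hb
  · have : ∀ x : Q, chi x b = 1 := by
      intro x; rcases hb with rfl | rfl
      · simp [chi]
      · simp [chi, h.comm x]
    simp [this]
  · obtain ⟨y, hy⟩ : ∃ y, b * y ≠ y * b := by
      by_contra hc; push Not at hc; exact hb (h.center b hc)
    refine sum_eq_zero_of_neg (Equiv.mulRight y) fun x => ?_
    rw [Equiv.coe_mulRight, h.chi_mul, show chi y b = -1 from if_neg fun e => hy e.symm,
      mul_neg_one]

omit h in
/-- The sum of the signs. -/
def total (Q : Type*) [Group Q] [Fintype Q] [DecidableEq Q] : ℤ := ∑ x : Q, eps x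

theorem total_sq : total Q * total Q = (1 + eps c) * Fintype.card Q := by
  have h1 : total Q * total Q = ∑ y : Q, eps y * ∑ x : Q, chi x y := by
    unfold total
    rw [Finset.sum_mul_sum]
    calc ∑ x : Q, ∑ y : Q, eps x * eps y = ∑ x : Q, ∑ y : Q, eps x * eps (x * y) := by
          refine Finset.sum_congr rfl fun x _ => ?_
          exact (Equiv.sum_comp (Equiv.mulLeft x) fun y => eps x * eps y).symm
      _ = ∑ x : Q, ∑ y : Q, eps y * chi x y := by
          refine Finset.sum_congr rfl fun x _ => Finset.sum_congr rfl fun y _ => ?_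
          rw [h.eps_mul, ← mul_assoc, ← mul_assoc, h.eps_mul_self, one_mul]
      _ = _ := by rw [Finset.sum_comm]; simp only [Finset.mul_sum]
  rw [h1]
  simp only [h.sum_chi, mul_ite, mul_zero]
  rw [← Finset.sum_filter, show (univ.filter fun y : Q => y = 1 ∨ y = c) = {1, c} by ext; simp,
    Finset.sum_pair h.ne_one.symm]
  simp [eps, h.sq]; ring

omit h in
theorem total_eq_count :
    total Q = 2 * ((univ.filter fun x : Q => x * x = 1).card : ℤ) - Fintype.card Q := by
  have : ∀ x : Q, eps x = 2 * (if x * x = 1 then (1 : ℤ) else 0) - 1 := fun x => by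
    by_cases e : x * x = 1 <;> simp [eps, e]
  rw [total, Finset.sum_congr rfl fun x _ => this x, Finset.sum_sub_distrib, ← Finset.mul_sum,
    Finset.sum_boole]
  simp

theorem count_sq_one (h32 : Fintype.card Q = 32) :
    (univ.filter fun x : Q => x * x = 1).card = 12 ∨
      (univ.filter fun x : Q => x * x = 1).card = 20 := by
  have h2 := h.total_sq
  rw [total_eq_count (Q := Q), h32, show eps c = 1 from if_pos h.sq] at h2
  set n := (univ.filter fun x : Q => x * x = 1).card
  have hn : n ≤ 32 := h32 ▸ Finset.card_le_univ _
  interval_cases n <;> omega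

theorem mul_eq_central_of_commute (h32 : Fintype.card Q = 32)
    (h12 : (univ.filter fun x : Q => x * x = 1).card = 12) {u w : Q}
    (hu : u * u = 1) (hw : w * w = 1) (hu1 : u ≠ 1) (huc : u ≠ c) (hw1 : w ≠ 1) (hwc : w ≠ c)
    (huw : u * w = w * u) : u = w ∨ u * w = c := by
  classical
  by_contra hcon
  push Not at hcon
  obtain ⟨hne, hprod⟩ := hcon
  set K := Subgroup.closure ({u, w, c} : Set Q) with hK
  have hcommK : IsMulCommutative K := by
    refine Subgroup.isMulCommutative_closure ?_
    intro a ha b hb
    simp only [Set.mem_insert_iff, Set.mem_singleton_iff] at ha hb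
    rcases ha with rfl | rfl | rfl <;> rcases hb with rfl | rfl | rfl <;>
      first
        | rfl
        | exact huw
        | exact huw.symm
        | exact h.comm _
        | exact (h.comm _).symm
  have hexp : ∀ a ∈ K, a * a = 1 := by
    intro a ha
    induction ha using Subgroup.closure_induction with
    | mem a ha =>
      simp only [Set.mem_insert_iff, Set.mem_singleton_iff] at ha
      rcases ha with rfl | rfl | rfl
      · exact hu
      · exact hw
      · exact h.sq
    | one => exact one_mul 1
    | mul a b ha hb iha ihb =>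
      have hab : a * b = b * a := congrArg Subtype.val (@mul_comm' _ _ hcommK ⟨a, ha⟩ ⟨b, hb⟩)
      calc a * b * (a * b) = a * (b * a) * b := by simp only [mul_assoc]
        _ = a * a * (b * b) := by rw [← hab]; simp only [mul_assoc]
        _ = 1 := by rw [iha, ihb, one_mul]
    | inv a _ iha => rw [← mul_inv_rev, iha, inv_one]
  set E : Finset Q := univ.filter fun x => x ∈ K with hE
  set M : Finset Q := univ.filter fun x => ∀ e ∈ E, x * e = e * x with hM
  have hc_mem : c ∈ K := Subgroup.subset_closure (by simp)
  have hEM : E ⊆ M := by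
    intro x hx
    simp only [hE, mem_filter, mem_univ, true_and] at hx
    simp only [hM, hE, mem_filter, mem_univ, true_and]
    exact fun e he => congrArg Subtype.val (@mul_comm' _ _ hcommK ⟨x, hx⟩ ⟨e, he⟩)
  have inner : ∀ x : Q, ∑ e ∈ E, chi x e = if x ∈ M then (E.card : ℤ) else 0 := by
    intro x
    split_ifs with hx
    · simp only [hM, mem_filter, mem_univ, true_and] at hx
      rw [Finset.sum_congr rfl fun e he => show chi x e = 1 from if_pos (hx e he)]
      simp
    · simp only [hM, mem_filter, mem_univ, true_and, not_forall] at hx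
      obtain ⟨e0, he0, hx0⟩ := hx
      simp only [hE, mem_filter, mem_univ, true_and] at he0
      have hs : ∑ e ∈ E, chi x (e * e0) = ∑ e ∈ E, chi x e := by
        refine Finset.sum_nbij' (fun e => e * e0) (fun e => e * e0⁻¹) ?_ ?_ ?_ ?_ ?_ <;>
          simp (config := { contextual := true }) [hE, K.mul_mem_cancel_right he0,
            K.mul_mem_cancel_right (K.inv_mem he0)]
      have hneg : ∀ e, chi x (e * e0) = - chi x e := fun e => by
        rw [chi_symm, h.chi_mul, chi_symm e x, chi_symm e0 x,
          show chi x e0 = -1 from if_neg hx0, mul_neg_one]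
      simp only [hneg, Finset.sum_neg_distrib] at hs
      linarith
  have hprodcard : (M.card : ℤ) * E.card = 64 := by
    have : ∑ x : Q, ∑ e ∈ E, chi x e = 64 := by
      rw [Finset.sum_comm]
      simp only [h.sum_chi]
      rw [← Finset.sum_filter, show E.filter (fun y => y = 1 ∨ y = c) = {1, c} by
        ext y
        simp only [hE, mem_filter, mem_univ, true_and, mem_insert, mem_singleton]
        exact ⟨fun hy => hy.2, fun hy => ⟨by rcases hy with rfl | rfl; exacts [K.one_mem, hc_mem], hy⟩⟩,
        Finset.sum_pair h.ne_one.symm, h32]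
      norm_num
    simp only [inner] at this
    rw [← Finset.sum_filter, Finset.filter_univ_mem, Finset.sum_const, nsmul_eq_mul] at this
    exact this
  have hEeps : ∀ e ∈ E, eps e = 1 := fun e he =>
    if_pos (hexp e (by simpa [hE] using he))
  have htot : (E.card : ℤ) * total Q = (E.card : ℤ) * ∑ x ∈ M, eps x := by
    calc (E.card : ℤ) * total Q = ∑ e ∈ E, ∑ x : Q, eps (x * e) := by
          rw [show ∑ e ∈ E, ∑ x : Q, eps (x * e) = ∑ _e ∈ E, total Q from
            Finset.sum_congr rfl fun e _ => Equiv.sum_comp (Equiv.mulRight e) (eps (Q := Q))]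
          simp
      _ = ∑ x : Q, eps x * ∑ e ∈ E, chi x e := by
          rw [Finset.sum_comm]
          refine Finset.sum_congr rfl fun x _ => ?_
          rw [Finset.mul_sum]
          refine Finset.sum_congr rfl fun e he => ?_
          rw [h.eps_mul, hEeps e he, mul_one]
      _ = _ := by
          simp only [inner, mul_ite, mul_zero]
          rw [← Finset.sum_filter, Finset.filter_univ_mem, Finset.mul_sum]
          exact Finset.sum_congr rfl fun x _ => mul_comm _ _
  have huK : u ∈ K := Subgroup.subset_closure (by simp)
  have hwK : w ∈ K := Subgroup.subset_closure (by simp)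
  have h5 : 5 ≤ E.card := by
    have hsub : ({1, c, u, w, u * w} : Finset Q) ⊆ E := by
      intro x hx
      simp only [Finset.mem_insert, Finset.mem_singleton] at hx
      simp only [hE, mem_filter, mem_univ, true_and]
      rcases hx with rfl | rfl | rfl | rfl | rfl
      exacts [K.one_mem, hc_mem, huK, hwK, K.mul_mem huK hwK]
    refine le_trans ?_ (Finset.card_le_card hsub)
    have e1 : u * w ≠ 1 := fun e => hne (by
      rw [← inv_eq_of_mul_eq_one_left hw, eq_inv_of_mul_eq_one_left e])
    have e2 : u ≠ u * w := fun e => hw1 (mul_eq_left.mp e.symm)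
    have e3 : w ≠ u * w := fun e => hu1 (mul_eq_right.mp e.symm)
    rw [Finset.card_insert_of_notMem, Finset.card_insert_of_notMem, Finset.card_insert_of_notMem,
      Finset.card_insert_of_notMem, Finset.card_singleton] <;>
      simp [h.ne_one.symm, hu1.symm, hw1.symm, e1.symm, hne, huc.symm, hwc.symm, hprod.symm, e2, e3]
  have hdvd : E.card ∣ 32 := by
    have : Nat.card K = E.card := by
      rw [Nat.card_eq_fintype_card, Fintype.card_subtype, hE]
    rw [← this, ← h32, ← Nat.card_eq_fintype_card]
    exact K.card_subgroup_dvd_card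
  have hle : E.card ≤ M.card := Finset.card_le_card hEM
  have hE8 : E.card = 8 := by
    have h1 : M.card * E.card = 64 := by exact_mod_cast hprodcard
    have h2 : E.card * E.card ≤ 64 := h1 ▸ Nat.mul_le_mul_right _ hle
    have h3 : E.card ≤ 8 := by nlinarith
    interval_cases hh : E.card <;> omega
  have hM8 : M.card = 8 := by
    rw [hE8] at hprodcard
    omega
  have hEeq : E = M := Finset.eq_of_subset_of_card_le hEM (by omega)
  rw [← hEeq, Finset.sum_congr rfl hEeps, total_eq_count, h32, h12, hE8] at htot
  simp only [Finset.sum_const, hE8] at htot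
  norm_num at htot

end CentralTwo

end CfsgLib.InvolChar
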